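import Mathlib
import Cfsg.Agent.PReduced.Hom

/-!
A group of order 162 acting on the nine cosets of a subgroup of order 18.
-/

set_option autoImplicit false

namespace Cfsg.Agent.Order162

open Subgroup

theorem cycleType_fpf_three (π : Equiv.Perm (Fin 9)) (h3 : π ^ 3 = 1) (hfix : ∀ x, π x ≠ x) :
    π.cycleType = Multiset.replicate 3 3 := by
  have : Fact (Nat.Prime 3) := ⟨Nat.prime_three⟩
  have h := Equiv.Perm.cycleType_of_pow_prime_eq_one h3
  have hs := π.sum_cycleType
  have hsupp : π.support = Finset.univ :=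
    Finset.eq_univ_of_forall fun x => Equiv.Perm.mem_support.2 (hfix x)
  rw [hsupp, Finset.card_univ, Fintype.card_fin, h, Multiset.sum_replicate, smul_eq_mul] at hs
  rw [h, show π.cycleType.card = 3 by omega]

theorem card_centralizer_fpf_three (π : Equiv.Perm (Fin 9))
    (h : π.cycleType = Multiset.replicate 3 3) :
    Nat.card (Subgroup.centralizer ({π} : Set (Equiv.Perm (Fin 9)))) = 162 := by
  rw [Equiv.Perm.nat_card_centralizer, h, Fintype.card_fin,
    show (Multiset.replicate 3 3).toFinset = ({3} : Finset ℕ) by decide, Finset.prod_singleton]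
  decide

theorem iso_of_regular_central {G : Type*} [Group G] [Finite G] (hG : Nat.card G = 162) {z : G}
    (hz3 : z ^ 3 = 1) (hzc : ∀ g : G, g * z = z * g) (H : Subgroup G) (hHc : Nat.card H = 18)
    (hcore : H.normalCore = ⊥) (hzH : z ∉ H) (π : Equiv.Perm (Fin 9))
    (hπ : π.cycleType = Multiset.replicate 3 3) :
    Nonempty (G ≃* Subgroup.centralizer ({π} : Set (Equiv.Perm (Fin 9)))) := by
  have hidx : Nat.card (G ⧸ H) = 9 := by
    have := H.card_eq_card_quotient_mul_card_subgroup
    rw [hG, hHc] at this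
    omega
  let e : G ⧸ H ≃ Fin 9 := Finite.equivFinOfCardEq hidx
  let F : G →* Equiv.Perm (Fin 9) :=
    e.permCongrHom.toMonoidHom.comp (MulAction.toPermHom G (G ⧸ H))
  have hinj : Function.Injective F := e.permCongrHom.injective.comp
    ((MonoidHom.ker_eq_bot_iff _).1 (by rw [← normalCore_eq_ker]; exact hcore))
  have hfix : ∀ x, F z x ≠ x := by
    intro x hx
    obtain ⟨g, hg⟩ := QuotientGroup.mk_surjective (e.symm x)
    have h1 : (z • (e.symm x) : G ⧸ H) = e.symm x := by
      apply e.injective
      rw [e.apply_symm_apply]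
      exact hx
    rw [← hg] at h1
    have h2 : g⁻¹ * (z * g) ∈ H := QuotientGroup.eq.1 h1.symm
    rw [← hzc g, inv_mul_cancel_left] at h2
    exact hzH h2
  have hF3 : F z ^ 3 = 1 := by rw [← map_pow, hz3, map_one]
  obtain ⟨σ, hσ⟩ := isConj_iff.1
    (Equiv.Perm.isConj_of_cycleType_eq ((cycleType_fpf_three _ hF3 hfix).trans hπ.symm))
  let F' : G →* Equiv.Perm (Fin 9) := (MulAut.conj σ).toMonoidHom.comp F
  have hF'z : F' z = π := hσ
  have hrange : ∀ g, F' g ∈ Subgroup.centralizer ({π} : Set (Equiv.Perm (Fin 9))) := by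
    intro g
    rw [Subgroup.mem_centralizer_singleton_iff, ← hF'z, ← map_mul, hzc, map_mul]
  let F'' := F'.codRestrict _ hrange
  have hinj'' : Function.Injective F'' := fun a b h =>
    hinj ((MulAut.conj σ).injective (congrArg Subtype.val h))
  exact ⟨MulEquiv.ofBijective F'' ((Nat.bijective_iff_injective_and_card F'').2
    ⟨hinj'', by rw [hG, card_centralizer_fpf_three π hπ]⟩)⟩

theorem exists_hyperplane {G : Type*} [Group G] [Finite G] {J : Subgroup G}
    (hJc : ∀ a ∈ J, ∀ b ∈ J, a * b = b * a) (hJexp : ∀ a ∈ J, a ^ 3 = 1) {t : G} (ht : t * t = 1)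
    (htJ : ∀ a ∈ J, t * a * t ∈ J) {z : G} (hz : z ∈ J) (hz1 : z ≠ 1) :
    ∃ M : Subgroup G, M ≤ J ∧ (∀ a ∈ M, t * a * t ∈ M) ∧ z ∉ M ∧
      Nat.card J = 3 * Nat.card M := by
  let p : Subgroup G → Prop := fun M => M ≤ J ∧ (∀ a ∈ M, t * a * t ∈ M) ∧ z ∉ M
  obtain ⟨M, -, hM, hmax⟩ := Finite.exists_le_maximal (p := p) (a := ⊥) ⟨bot_le, by
    intro a ha; rw [Subgroup.mem_bot] at ha ⊢; rw [ha, mul_one, ht], by simpa using hz1⟩
  obtain ⟨hMJ, hMt, hzM⟩ := hM
  refine ⟨M, hMJ, hMt, hzM, ?_⟩
  -- the subgroup generated by `M` and an element of `J`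
  let adj : ∀ e ∈ J, Subgroup G := fun e he =>
    { carrier := {x | x ∈ M ∨ x * e⁻¹ ∈ M ∨ x * e ∈ M}
      one_mem' := Or.inl (one_mem _)
      inv_mem' := by
        rintro x (h | h | h)
        · exact Or.inl (inv_mem h)
        · refine Or.inr (Or.inr ?_)
          have hx : x ∈ J := by
            have := mul_mem (hMJ h) he
            rwa [inv_mul_cancel_right] at this
          have := inv_mem h
          rwa [mul_inv_rev, inv_inv, hJc e he _ (inv_mem hx)] at this
        · refine Or.inr (Or.inl ?_)
          have hx : x ∈ J := by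
            have := mul_mem (hMJ h) (inv_mem he)
            rwa [mul_inv_cancel_right] at this
          have := inv_mem h
          rwa [mul_inv_rev, hJc _ (inv_mem he) _ (inv_mem hx)] at this
      mul_mem' := by
        have hJm : ∀ x, (x ∈ M ∨ x * e⁻¹ ∈ M ∨ x * e ∈ M) → x ∈ J := by
          rintro x (h | h | h)
          · exact hMJ h
          · have := mul_mem (hMJ h) he
            rwa [inv_mul_cancel_right] at this
          · have := mul_mem (hMJ h) (inv_mem he)
            rwa [mul_inv_cancel_right] at this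
        have he3 : e ^ 3 = 1 := hJexp e he
        have he2 : e⁻¹ = e * e := by
          apply inv_eq_of_mul_eq_one_right
          rw [← he3, pow_three]
        intro x y hx hy
        have hxJ := hJm x hx
        have hyJ := hJm y hy
        have hc : ∀ c ∈ J, x * y * c = (x * c) * y := fun c hcJ => by
          rw [mul_assoc, hJc y hyJ c hcJ, ← mul_assoc]
        rcases hx with h | h | h <;> rcases hy with h' | h' | h'
        · exact Or.inl (mul_mem h h')
        · exact Or.inr (Or.inl (by rw [mul_assoc]; exact mul_mem h h'))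
        · exact Or.inr (Or.inr (by rw [mul_assoc]; exact mul_mem h h'))
        · exact Or.inr (Or.inl (by rw [hc _ (inv_mem he)]; exact mul_mem h h'))
        · refine Or.inr (Or.inr ?_)
          have := mul_mem h h'
          rwa [← mul_assoc, ← hc _ (inv_mem he), mul_assoc (x * y),
            show e⁻¹ * e⁻¹ = e by rw [← mul_inv_rev, ← he2, inv_inv]] at this
        · refine Or.inl ?_
          have := mul_mem h h'
          rwa [← mul_assoc, ← hc _ (inv_mem he), inv_mul_cancel_right] at this
        · exact Or.inr (Or.inr (by rw [hc _ he]; exact mul_mem h h'))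
        · refine Or.inl ?_
          have := mul_mem h h'
          rwa [← mul_assoc, ← hc _ he, mul_inv_cancel_right] at this
        · refine Or.inr (Or.inl ?_)
          have := mul_mem h h'
          rwa [← mul_assoc, ← hc _ he, mul_assoc (x * y), ← he2] at this }
  have hadjJ : ∀ e (he : e ∈ J), adj e he ≤ J := by
    rintro e he x (h | h | h)
    · exact hMJ h
    · have := mul_mem (hMJ h) he
      rwa [inv_mul_cancel_right] at this
    · have := mul_mem (hMJ h) (inv_mem he)
      rwa [mul_inv_cancel_right] at this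
  -- every eigenvector lies in `adj z`
  have heig : ∀ e ∈ J, (t * e * t = e ∨ t * e * t = e⁻¹) → e ∈ adj z hz := by
    intro e he hte
    by_contra hne
    have htt : ∀ a b : G, t * (a * b) * t = (t * a * t) * (t * b * t) := fun a b => by
      calc t * (a * b) * t = t * a * (t * t) * b * t := by rw [ht]; group
        _ = _ := by group
    have hinvt : ∀ x, t * x⁻¹ * t = (t * x * t)⁻¹ := fun x => by
      rw [mul_inv_rev, mul_inv_rev, inv_eq_of_mul_eq_one_right ht]; group
    have hstab : ∀ a ∈ adj e he, t * a * t ∈ adj e he := by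
      rintro a (h | h | h)
      · exact Or.inl (hMt a h)
      all_goals
        have h1 := hMt _ h
        rw [htt, ] at h1
      · rw [hinvt] at h1
        rcases hte with h2 | h2 <;> rw [h2] at h1
        · exact Or.inr (Or.inl h1)
        · rw [inv_inv] at h1; exact Or.inr (Or.inr h1)
      · rcases hte with h2 | h2 <;> rw [h2] at h1
        · exact Or.inr (Or.inr h1)
        · exact Or.inr (Or.inl h1)
    have hzadj : z ∉ adj e he := by
      rintro (h | h | h)
      · exact hzM h
      · refine hne (Or.inr (Or.inl ?_))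
        have := inv_mem h
        rwa [mul_inv_rev, inv_inv] at this
      · refine hne (Or.inr (Or.inr ?_))
        rwa [hJc e he z hz]
    have hle : adj e he ≤ M := hmax ⟨hadjJ e he, hstab, hzadj⟩ (fun a ha => Or.inl ha)
    exact hne (Or.inl (hle (Or.inr (Or.inl (by rw [mul_inv_cancel]; exact one_mem _)))))
  have hall : J ≤ adj z hz := by
    intro a ha
    have hb : t * a * t ∈ J := htJ a ha
    set b := t * a * t with hbdef
    have hbt : t * b * t = a := by
      rw [hbdef, show t * (t * a * t) * t = (t * t) * a * (t * t) by group, ht, one_mul, mul_one]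
    have hab := hJc a ha b hb
    have htt : ∀ x y : G, t * (x * y) * t = (t * x * t) * (t * y * t) := fun x y => by
      calc t * (x * y) * t = t * x * (t * t) * y * t := by rw [ht]; group
        _ = _ := by group
    have hinvt : ∀ x, t * x⁻¹ * t = (t * x * t)⁻¹ := fun x => by
      rw [mul_inv_rev, mul_inv_rev, inv_eq_of_mul_eq_one_right ht]; group
    have hu : a * b ∈ adj z hz := heig _ (mul_mem ha hb) (Or.inl (by
      rw [htt, hbt, ← hbdef, hab]))
    have hv : a * b⁻¹ ∈ adj z hz := heig _ (mul_mem ha (inv_mem hb)) (Or.inr (by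
      rw [htt, hinvt, hbt, ← hbdef, mul_inv_rev, inv_inv]))
    have h1 := mul_mem hu hv
    rw [hab, mul_assoc, ← mul_assoc a, ← pow_two, hJc b hb _ (mul_mem (pow_mem ha 2) (inv_mem hb)),
      inv_mul_cancel_right] at h1
    have h2 := mul_mem h1 h1
    rwa [← pow_add, show (2 : ℕ) + 2 = 3 + 1 from rfl, pow_succ, hJexp a ha, one_mul] at h2
  have heq : adj z hz = J := le_antisymm (hadjJ z hz) hall
  have hset : (J : Set G) =
      (M : Set G) ∪ ((fun x => x * z) '' (M : Set G) ∪ (fun x => x * z⁻¹) '' (M : Set G)) := by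
    ext x
    constructor
    · intro hx
      rcases hall hx with h | h | h
      · exact Or.inl h
      · exact Or.inr (Or.inl ⟨_, h, inv_mul_cancel_right x z⟩)
      · exact Or.inr (Or.inr ⟨_, h, mul_inv_cancel_right x z⟩)
    · rintro (h | ⟨y, hy, rfl⟩ | ⟨y, hy, rfl⟩)
      · exact hMJ h
      · exact mul_mem (hMJ hy) hz
      · exact mul_mem (hMJ hy) (inv_mem hz)
  have hd1 : Disjoint ((fun x => x * z) '' (M : Set G)) ((fun x => x * z⁻¹) '' (M : Set G)) := by
    rw [Set.disjoint_left]
    rintro _ ⟨x, hx, rfl⟩ ⟨y, hy, hxy⟩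
    have hxy' : y * z⁻¹ = x * z := hxy
    apply hzM
    have h1 := mul_mem (inv_mem hx) hy
    have h2 : x⁻¹ * y = z * z := by
      rw [show y = x * z * z by rw [← hxy', inv_mul_cancel_right]]; group
    rw [h2] at h1
    have h3 := inv_mem h1
    rwa [show (z * z)⁻¹ = z by
      apply inv_eq_of_mul_eq_one_right
      rw [← hJexp z hz, pow_three, mul_assoc]] at h3
  have hd2 : Disjoint (M : Set G)
      ((fun x => x * z) '' (M : Set G) ∪ (fun x => x * z⁻¹) '' (M : Set G)) := by
    rw [Set.disjoint_left]
    rintro x hx (⟨y, hy, rfl⟩ | ⟨y, hy, rfl⟩)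
    · exact hzM (by simpa using mul_mem (inv_mem hy) hx)
    · exact hzM (by simpa using inv_mem (mul_mem (inv_mem hy) hx))
  have hcard : (J : Set G).ncard = 3 * (M : Set G).ncard := by
    rw [hset, Set.ncard_union_eq hd2, Set.ncard_union_eq hd1,
      Set.ncard_image_of_injective _ (mul_left_injective z),
      Set.ncard_image_of_injective _ (mul_left_injective z⁻¹)]
    ring
  simpa [← Nat.card_coe_set_eq] using hcard

theorem main {G : Type*} [Group G] [Finite G] (hG : Nat.card G = 162)
    (S : Sylow 3 G) (T : Sylow 2 G) (J : Subgroup G) [hJn : J.Normal] (hJcomm : IsMulCommutative J)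
    (hJexp : ∀ a ∈ J, a ^ 3 = 1) (hJcard : Nat.card J = 27)
    (Z : Subgroup G) (hZ : Z = (S : Subgroup G) ⊓ centralizer ((S : Subgroup G) : Set G))
    (hZcard : Nat.card Z = 3) (hZT : Z ≤ centralizer ((T : Subgroup G) : Set G))
    (hST : (S : Subgroup G) ⊓ centralizer ((T : Subgroup G) : Set G) ≠ S)
    (π : Equiv.Perm (Fin 9)) (hπ : π.cycleType = Multiset.replicate 3 3) :
    Nonempty (G ≃* centralizer ({π} : Set (Equiv.Perm (Fin 9)))) := by
  have : Fact (Nat.Prime 2) := ⟨Nat.prime_two⟩
  have : Fact (Nat.Prime 3) := ⟨Nat.prime_three⟩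
  have hJc : ∀ a ∈ J, ∀ b ∈ J, a * b = b * a := fun a ha b hb =>
    congrArg Subtype.val (hJcomm.is_comm.comm ⟨a, ha⟩ ⟨b, hb⟩)
  have hTc : Nat.card T = 2 := by
    rw [T.card_eq_multiplicity, hG,
      show Nat.factorization 162 2 = 1 from by
        rw [show (162 : ℕ) = 3 ^ 4 * 2 by norm_num,
          Nat.factorization_mul (by norm_num) (by norm_num), Finsupp.add_apply,
          Nat.Prime.factorization_pow Nat.prime_three, Nat.Prime.factorization Nat.prime_two]
        simp]
    norm_num
  have hSc : Nat.card S = 81 := by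
    rw [S.card_eq_multiplicity, hG,
      show Nat.factorization 162 3 = 4 from by
        rw [show (162 : ℕ) = 3 ^ 4 * 2 by norm_num,
          Nat.factorization_mul (by norm_num) (by norm_num), Finsupp.add_apply,
          Nat.Prime.factorization_pow Nat.prime_three, Nat.Prime.factorization Nat.prime_two]
        simp]
    norm_num
  obtain ⟨⟨t, htT⟩, ht1⟩ : ∃ t : (T : Subgroup G), t ≠ 1 :=
    (T : Subgroup G).ne_bot_iff_exists_ne_one.1 (fun h => by
      rw [← Subgroup.card_eq_one] at h
      omega)
  have ht1' : t ≠ 1 := fun h => ht1 (Subtype.ext h)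
  have ht : t * t = 1 := by
    have h := pow_card_eq_one' (x := (⟨t, htT⟩ : (T : Subgroup G)))
    rw [hTc, pow_two] at h
    exact congrArg Subtype.val h
  have hTmem : ∀ x ∈ (T : Subgroup G), x = 1 ∨ x = t := by
    intro x hx
    by_contra hne
    push Not at hne
    have h3 : ({1, t, x} : Set G).ncard ≤ ((T : Subgroup G) : Set G).ncard :=
      Set.ncard_le_ncard (by
        rintro y (rfl | rfl | rfl)
        · exact one_mem _
        · exact htT
        · exact hx) (Set.toFinite _)
    have h4 : ((T : Subgroup G) : Set G).ncard = 2 := (Nat.card_coe_set_eq _).symm.trans hTc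
    rw [Set.ncard_eq_three.2 ⟨1, t, x, ht1'.symm, hne.1.symm, hne.2.symm, rfl⟩] at h3
    omega
  have hJ3 : IsPGroup 3 J := IsPGroup.of_card (n := 3) (by rw [hJcard]; norm_num)
  have hJS : J ≤ (S : Subgroup G) :=
    le_sup_left.trans (S.is_maximal' (hJ3.to_sup_of_normal_left S.isPGroup') le_sup_right).le
  -- `Z ≤ J`
  have hJS' : J.subgroupOf (S : Subgroup G) ≠ ⊥ := fun h => by
    have h1 : Nat.card (J.subgroupOf (S : Subgroup G)) = 27 :=
      (Nat.card_congr (Subgroup.subgroupOfEquivOfLe hJS).toEquiv).trans hJcard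
    rw [h, Subgroup.card_bot] at h1
    omega
  have hne := CfsgLib.PReduced.inf_center_ne_bot S.isPGroup' hJS'
  obtain ⟨⟨⟨z, hzS⟩, hzJ, hzC⟩, hz1⟩ := Subgroup.ne_bot_iff_exists_ne_one.1 hne
  have hz1' : z ≠ 1 := fun h => hz1 (Subtype.ext (Subtype.ext h))
  have hzJ' : z ∈ J := hzJ
  have hzZ : z ∈ Z := by
    rw [hZ]
    exact ⟨hzS, mem_centralizer_iff.2 fun y hy =>
      congrArg Subtype.val (Subgroup.mem_center_iff.1 hzC ⟨y, hy⟩)⟩
  have hzc : ∀ g : G, g * z = z * g := by
    have h1 : (S : Subgroup G) ≤ centralizer ({z} : Set G) := fun y hy =>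
      mem_centralizer_singleton_iff.2 (congrArg Subtype.val (Subgroup.mem_center_iff.1 hzC ⟨y, hy⟩))
    have h2 : (T : Subgroup G) ≤ centralizer ({z} : Set G) := fun y hy =>
      mem_centralizer_singleton_iff.2 (mem_centralizer_iff.1 (hZT hzZ) y hy)
    have htop : centralizer ({z} : Set G) = ⊤ := by
      apply Subgroup.eq_top_of_card_eq
      refine Nat.dvd_antisymm (Subgroup.card_subgroup_dvd_card _) ?_
      rw [hG]
      exact (Nat.Coprime.mul_dvd_of_dvd_of_dvd (by norm_num : Nat.Coprime 81 2)
        (hSc ▸ Subgroup.card_dvd_of_le h1) (hTc ▸ Subgroup.card_dvd_of_le h2))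
    intro g
    exact mem_centralizer_singleton_iff.1 (htop ▸ mem_top g)
  have htJ : ∀ a ∈ J, t * a * t ∈ J := fun a ha => by
    have := hJn.conj_mem a ha t
    rwa [inv_eq_of_mul_eq_one_right ht] at this
  obtain ⟨M, hMJ, hMt, hzM, hMc⟩ := exists_hyperplane hJc hJexp ht htJ hzJ' hz1'
  have hM9 : Nat.card M = 9 := by omega
  have htnJ : t ∉ J := fun h => ht1' (by
    have := hJexp t h
    rwa [pow_three, ht, mul_one] at this)
  let H : Subgroup G :=
    { carrier := {g | g ∈ M ∨ g * t ∈ M}
      one_mem' := Or.inl (one_mem _)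
      inv_mem' := by
        rintro g (h | h)
        · exact Or.inl (inv_mem h)
        · refine Or.inr ?_
          have h1 := hMt _ (inv_mem h)
          rwa [mul_inv_rev, inv_eq_of_mul_eq_one_right ht, ← mul_assoc, ht, one_mul] at h1
      mul_mem' := by
        intro a b ha hb
        rcases ha with h | h <;> rcases hb with h' | h'
        · exact Or.inl (mul_mem h h')
        · exact Or.inr (by rw [mul_assoc]; exact mul_mem h h')
        · refine Or.inr ?_
          have := mul_mem h (hMt b h')
          rwa [show a * t * (t * b * t) = a * (t * t) * b * t by group, ht, mul_one] at this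
        · refine Or.inl ?_
          have := mul_mem h (hMt _ h')
          rwa [show a * t * (t * (b * t) * t) = a * (t * t) * b * (t * t) by group, ht, mul_one,
            mul_one] at this }
  have hHc : Nat.card H = 18 := by
    have hset : (H : Set G) = (M : Set G) ∪ (fun x => x * t) '' (M : Set G) := by
      ext x
      constructor
      · rintro (h | h)
        · exact Or.inl h
        · exact Or.inr ⟨_, h, by simp only; rw [mul_assoc, ht, mul_one]⟩
      · rintro (h | ⟨y, hy, rfl⟩)
        · exact Or.inl h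
        · exact Or.inr (show y * t * t ∈ M by rw [mul_assoc, ht, mul_one]; exact hy)
    have hd : Disjoint (M : Set G) ((fun x => x * t) '' (M : Set G)) := by
      rw [Set.disjoint_left]
      rintro x hx ⟨y, hy, rfl⟩
      exact htnJ (hMJ (by simpa using mul_mem (inv_mem hy) hx))
    have : (H : Set G).ncard = 18 := by
      rw [hset, Set.ncard_union_eq hd, Set.ncard_image_of_injective _ (mul_left_injective t),
        ← Nat.card_coe_set_eq]
      exact (show Nat.card M + Nat.card M = 18 by omega)
    rw [← this]; exact Nat.card_coe_set_eq _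
  have hzH : z ∉ H := by
    rintro (h | h)
    · exact hzM h
    · exact htnJ (by simpa using mul_mem (inv_mem hzJ') (hMJ h))
  refine iso_of_regular_central hG (hJexp z hzJ') hzc H hHc ?_ hzH π hπ
  by_contra hN
  set N := H.normalCore with hNdef
  have hNH : N ≤ H := H.normalCore_le
  have hNn : N.Normal := H.normalCore_normal
  have hNM : ∀ g ∈ N, g ∈ J → g = 1 := by
    intro g hgN hgJ
    by_contra hg1
    have hQ : ((N ⊓ J).subgroupOf (S : Subgroup G)) ≠ ⊥ := by
      intro h
      have h2 : (⟨g, hJS hgJ⟩ : (S : Subgroup G)) ∈ (N ⊓ J).subgroupOf (S : Subgroup G) :=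
        ⟨hgN, hgJ⟩
      rw [h, Subgroup.mem_bot] at h2
      exact hg1 (congrArg Subtype.val h2)
    have hne' := CfsgLib.PReduced.inf_center_ne_bot S.isPGroup' hQ
    obtain ⟨⟨⟨w, hwS⟩, hwN, hwC⟩, hw1⟩ := Subgroup.ne_bot_iff_exists_ne_one.1 hne'
    have hwN' : w ∈ N ⊓ J := hwN
    have hwZ : w ∈ Z := by
      rw [hZ]
      exact ⟨hwS, mem_centralizer_iff.2 fun y hy =>
        congrArg Subtype.val (Subgroup.mem_center_iff.1 hwC ⟨y, hy⟩)⟩
    have hpr : (Nat.card Z).Prime := by rw [hZcard]; exact Nat.prime_three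
    have : Fact (Nat.card Z).Prime := ⟨hpr⟩
    have hgen := zpowers_eq_top_of_prime_card rfl (g := (⟨w, hwZ⟩ : Z))
      (fun h => hw1 (Subtype.ext (Subtype.ext (show w = 1 from congrArg (fun q : Z => (q : G)) h))))
    obtain ⟨k, hk⟩ := (Subgroup.mem_zpowers_iff).1 (hgen ▸ mem_top (⟨z, hzZ⟩ : Z))
    have hk' : w ^ k = z := by simpa using congrArg Subtype.val hk
    exact hzH (hk' ▸ zpow_mem (hNH hwN'.1) k)
  have hNt : ∀ g ∈ N, g = 1 ∨ g = t := by
    intro g hg
    rcases hNH hg with h | h
    · exact Or.inl (hNM g hg (hMJ h))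
    · right
      -- `g` centralises `J`, so `g * g ∈ J ∩ N` is trivial
      have hgJ : ∀ a ∈ J, g * a = a * g := by
        intro a ha
        have h1 : g * a * g⁻¹ * a⁻¹ ∈ J := mul_mem (hJn.conj_mem a ha g) (inv_mem ha)
        have h2 : g * a * g⁻¹ * a⁻¹ ∈ N := by
          have := mul_mem hg (hNn.conj_mem _ (inv_mem hg) a)
          rwa [show g * (a * g⁻¹ * a⁻¹) = g * a * g⁻¹ * a⁻¹ by group] at this
        exact mul_inv_eq_iff_eq_mul.1 (mul_inv_eq_one.1 (hNM _ h2 h1))
      set j := g * t with hj
      have hjJ : j ∈ J := hMJ h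
      have hgj : g = j * t := by rw [hj, mul_assoc, ht, mul_one]
      have htj : t * j = j * t := by
        have h3 := hgJ j hjJ
        rw [hgj] at h3
        exact mul_left_cancel (by rw [← mul_assoc, h3])
      have hgg : g * g ∈ J := by
        rw [hgj, show j * t * (j * t) = j * (t * j) * t by group, htj,
          show j * (j * t) * t = j * j * (t * t) by group, ht, mul_one]
        exact mul_mem hjJ hjJ
      have h4 := hNM _ (mul_mem hg hg) hgg
      rw [hgj, show j * t * (j * t) = j * (t * j) * t by group, htj,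
        show j * (j * t) * t = j * j * (t * t) by group, ht, mul_one] at h4
      have h5 := hJexp j hjJ
      rw [pow_three, h4, mul_one] at h5
      rw [hgj, h5, one_mul]
  obtain ⟨⟨g, hg⟩, hg1⟩ := Subgroup.ne_bot_iff_exists_ne_one.1 hN
  have htN : t ∈ N := by
    rcases hNt g hg with h | h
    · exact absurd (Subtype.ext h) hg1
    · exact h ▸ hg
  apply hST
  refine inf_eq_left.2 fun s hs => mem_centralizer_iff.2 fun y hy => ?_
  rcases hTmem y hy with rfl | rfl
  · rw [one_mul, mul_one]
  · rcases hNt _ (hNn.conj_mem _ htN s) with h | h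
    · exact absurd (conj_eq_one_iff.1 h) ht1'
    · exact (mul_inv_eq_iff_eq_mul.1 h).symm

end Cfsg.Agent.Order162
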